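import Mathlib
import Cfsg.Agent.Lib.Helper89.N2R.Defs
import Cfsg.Agent.Lib.Helper48.SpWreath

set_option autoImplicit false

namespace Cfsg.Agent.Lib.N2R
open Function Matrix

/-- diagonal matrices -/
def M1_diagM (F : Type*) [Field F] (n : ℕ) : (Fin n → Fˣ) →* Matrix (Fin n) (Fin n) F where
  toFun c := diagonal fun i => (c i : F)
  map_one' := by simp
  map_mul' a b := by simp [diagonal_mul_diagonal]

open Cfsg.Agent.Lib.Helper48 in
/-- permutation matrices -/
def M1_permM (F : Type*) [Field F] (n : ℕ) : Equiv.Perm (Fin n) →* Matrix (Fin n) (Fin n) F where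
  toFun σ := pmat F σ
  map_one' := pmat_one
  map_mul' := pmat_mul

open Cfsg.Agent.Lib.Helper48 SemidirectProduct in
/-- M1 : monomial embedding -/
theorem exists_mono {F : Type*} [Field F] (n : ℕ) (C : Subgroup Fˣ)
    (T : Subgroup (Equiv.Perm (Fin n))) :
    ∃ θ : (Fin n → C) ⋊[(mulAutArrow : T →* MulAut (Fin n → C))] T →* GL (Fin n) F,
      Injective θ := by
  let θ : (Fin n → C) ⋊[(mulAutArrow : T →* MulAut (Fin n → C))] T →* GL (Fin n) F :=
    SemidirectProduct.lift ((M1_diagM F n).toHomUnits.comp (MonoidHom.piMap fun _ => C.subtype))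
      ((M1_permM F n).toHomUnits.comp T.subtype) (by
        intro σ
        ext g : 1
        simp only [MonoidHom.comp_apply, MulEquiv.coe_toMonoidHom, MulAut.conj_apply]
        rw [eq_mul_inv_iff_mul_eq]
        apply Units.ext
        exact diagonal_mul_pmat (fun i => ((g i : Fˣ) : F)) (σ : Equiv.Perm (Fin n)))
  refine ⟨θ, ?_⟩
  rw [injective_iff_map_eq_one]
  intro x hx
  have h1 : (θ x).1 = diagonal (fun i => ((x.left i : Fˣ) : F)) * pmat F x.right.1 := by
    conv_lhs => rw [← inl_left_mul_inr_right x]
    rw [map_mul, SemidirectProduct.lift_inl, SemidirectProduct.lift_inr]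
    rfl
  rw [hx, Units.val_one, mul_pmat] at h1
  have hσ : ∀ i, x.right.1 i = i := by
    intro i
    have := congrFun (congrFun h1 i) i
    rw [one_apply_eq, submatrix_apply, diagonal_apply] at this
    by_contra h
    rw [if_neg (fun h' => h h'.symm)] at this
    exact one_ne_zero this
  have hc : ∀ i, ((x.left i : Fˣ) : F) = 1 := by
    intro i
    have := congrFun (congrFun h1 i) i
    rw [one_apply_eq, submatrix_apply, hσ i] at this
    simpa using this.symm
  apply SemidirectProduct.ext
  · funext i
    apply Subtype.ext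
    apply Units.ext
    exact hc i
  · apply Subtype.ext
    ext i
    simp [hσ i]

end Cfsg.Agent.Lib.N2R
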